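import Cfsg.Agent.H778.D4.Mon

/-!
# S4311, BOX D4: elements of odd order (helper778)
-/

set_option autoImplicit false
set_option linter.unusedSectionVars false

namespace Cfsg.Agent.H778.D4

open Module QuadraticMap Cfsg.Agent.H167.OP Cfsg.Agent.H170.HL Cfsg.Agent.H170.HL.OmRow Cfsg.Agent.H556.Om
open Cfsg Subgroup Cfsg.Agent.H485.RV Cfsg.Agent.H561.RV Cfsg.Agent.H561.D4

variable {F : Type} [Field F] {ι : Type} [Fintype ι] [DecidableEq ι] {Q : QuadraticForm F (ι → F)}
  {E : Fin 2 × A4 → ι → F}

/-- the partner in the plane -/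
def pt (j : Fin 2 × A4) : Fin 2 × A4 := (j.1, j.2 + (1, 1))

/-- an index outside the plane -/
def po (j : Fin 2 × A4) : Fin 2 × A4 := (j.1, j.2 + (1, 0))

theorem pt_pt (j : Fin 2 × A4) : pt (pt j) = j := by
  revert j; decide

theorem pt_ne (j : Fin 2 × A4) : pt j ≠ j := by
  revert j; decide

theorem po_ne (j : Fin 2 × A4) : j ≠ po j := by
  revert j; decide

theorem pt_ne_po (j : Fin 2 × A4) : pt j ≠ po j := by
  revert j; decide

theorem cases_ij (i j : Fin 2 × A4) : i = j ∨ i = pt j ∨ (i.1 = 0 ∧ ¬ j.1 = 0) ∨ (¬ i.1 = 0 ∧ j.1 = 0) ∨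
    (i.2.1 = i.2.2 ∧ ¬ j.2.1 = j.2.2) ∨ (¬ i.2.1 = i.2.2 ∧ j.2.1 = j.2.2) := by
  revert i j; decide

/-- elements commuting with `z` and `v` preserve the planes -/
theorem plane (h : Q8 Q) (hF : Frame (polarBilin Q) E) {z v y : Cfsg.Omega F (⇑Q)} (hz : IsZ Q E z) (hv : IsV Q E v)
    (hyz : y * z = z * y) (hyv : y * v = v * y) (j : Fin 2 × A4) :
    ∃ a b : F, rep (inc (⇑Q)) y (E j) = a • E j + b • E (pt j) := by
  have hzE : ∀ i, rep (inc (⇑Q)) z (E i) = s0 F i • E i := fun i => by rw [hz, mono_e hF h.two]; rfl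
  have hvE : ∀ i, rep (inc (⇑Q)) v (E i) = chi F i • E i := fun i => by rw [hv, mono_e hF h.two]; rfl
  -- the entries
  have h1 : ∀ i, polarBilin Q (E i) (rep (inc (⇑Q)) y (E j)) = s0 F i * s0 F j * polarBilin Q (E i) (rep (inc (⇑Q)) y (E j)) := by
    intro i
    have h2 := polar_omega z (E i) (rep (inc (⇑Q)) y (E j))
    rw [← mul_ap, ← hyz, mul_ap, hzE, hzE, map_smul, map_smul, map_smul, LinearMap.smul_apply, smul_eq_mul, smul_eq_mul] at h2
    exact h2.symm.trans (by ring)
  have h1' : ∀ i, polarBilin Q (E i) (rep (inc (⇑Q)) y (E j)) =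
      chi F i * chi F j * polarBilin Q (E i) (rep (inc (⇑Q)) y (E j)) := by
    intro i
    have h2 := polar_omega v (E i) (rep (inc (⇑Q)) y (E j))
    rw [← mul_ap, ← hyv, mul_ap, hvE, hvE, map_smul, map_smul, map_smul, LinearMap.smul_apply, smul_eq_mul, smul_eq_mul] at h2
    exact h2.symm.trans (by ring)
  have hneg : ∀ x : F, x = -1 * x → x = 0 := by
    intro x hx
    have h5 : (2 : F) * x = 0 := by linear_combination hx
    exact (mul_eq_zero.1 h5).resolve_left h.two
  have h2 : ∀ i, i ≠ j → i ≠ pt j → polarBilin Q (E i) (rep (inc (⇑Q)) y (E j)) = 0 := by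
    intro i hij hip
    apply hneg
    rcases cases_ij i j with h3 | h3 | ⟨h3, h4⟩ | ⟨h3, h4⟩ | ⟨h3, h4⟩ | ⟨h3, h4⟩
    · exact absurd h3 hij
    · exact absurd h3 hip
    · have h5 := h1 i
      rw [s0, s0, if_pos h3, if_neg h4, mul_one] at h5
      exact h5
    · have h5 := h1 i
      rw [s0, s0, if_neg h3, if_pos h4, one_mul] at h5
      exact h5
    · have h5 := h1' i
      rw [chi, chi, if_pos h3, if_neg h4, one_mul] at h5
      exact h5
    · have h5 := h1' i
      rw [chi, chi, if_neg h3, if_pos h4, mul_one] at h5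
      exact h5
  refine ⟨(2 : F)⁻¹ * polarBilin Q (E j) (rep (inc (⇑Q)) y (E j)),
    (2 : F)⁻¹ * polarBilin Q (E (pt j)) (rep (inc (⇑Q)) y (E j)), ?_⟩
  rw [← sub_eq_zero]
  apply span_frame h hF
  intro i
  rw [map_sub, map_add, map_smul, map_smul, smul_eq_mul, smul_eq_mul]
  by_cases hij : i = j
  · subst hij
    rw [hF.self, hF.orth _ _ (pt_ne i).symm, mul_zero, add_zero, mul_assoc, mul_comm _ (2 : F), ← mul_assoc,
      inv_mul_cancel₀ h.two, one_mul, sub_self]
  · by_cases hip : i = pt j
    · rw [hip, hF.self, hF.orth _ _ (pt_ne j), mul_zero, zero_add, mul_assoc, mul_comm _ (2 : F), ← mul_assoc,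
        inv_mul_cancel₀ h.two, one_mul, sub_self]
    · rw [h2 i hij hip, hF.orth _ _ hij, hF.orth _ _ hip, mul_zero, mul_zero, add_zero, sub_zero]

/-- the stabiliser of a vector -/
def st (Q : QuadraticForm F (ι → F)) (u : ι → F) : Subgroup (Cfsg.Omega F (⇑Q)) where
  carrier := {g | rep (inc (⇑Q)) g u = u}
  one_mem' := by show rep (inc (⇑Q)) 1 u = u; rw [map_one, Module.End.one_apply]
  mul_mem' := by
    intro a b ha hb
    show rep (inc (⇑Q)) (a * b) u = u
    rw [mul_ap, show rep (inc (⇑Q)) b u = u from hb]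
    exact ha
  inv_mem' := by
    intro a ha
    show rep (inc (⇑Q)) a⁻¹ u = u
    have h1 : rep (inc (⇑Q)) a u = u := ha
    nth_rewrite 1 [← h1]
    exact inv_ap _ a u

theorem mem_st {u : ι → F} {g : Cfsg.Omega F (⇑Q)} : g ∈ st Q u ↔ rep (inc (⇑Q)) g u = u := Iff.rfl

/-- elements of odd order commuting with `z` and `v`, such that the commutators with the sign changes are 2-elements,
are trivial -/
theorem odd_trivial (h : Q8 Q) (hF : Frame (polarBilin Q) E) {z v y : Cfsg.Omega F (⇑Q)} (hz : IsZ Q E z)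
    (hv : IsV Q E v) (hyz : y * z = z * y) (hyv : y * v = v * y) {n : ℕ} (hn : Odd n) (hyn : y ^ n = 1)
    (ht : ∀ (i j : Fin 2 × A4), i ≠ j → ∀ t : Cfsg.Omega F (⇑Q),
      rep (inc (⇑Q)) t = mono (polarBilin Q) E (H556.Om.sg F i j) id → ∃ k : ℕ, (y * t * y⁻¹ * t⁻¹) ^ 2 ^ k = 1) :
    y = 1 := by
  have main : ∀ j, y ∈ st Q (E j) := by
    intro j
    obtain ⟨a, b, hab⟩ := plane h hF hz hv hyz hyv j
    obtain ⟨d, c, hcd⟩ := plane h hF hz hv hyz hyv (pt j)
    rw [pt_pt] at hcd
    set u := E j with hu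
    set w := E (pt j) with hw
    have hyn' : y ^ n ∈ st Q u := by rw [hyn]; exact (st Q u).one_mem
    have huu : polarBilin Q u u = 2 := hF.self j
    have hww : polarBilin Q w w = 2 := hF.self (pt j)
    have huw : polarBilin Q u w = 0 := hF.orth _ _ (pt_ne j).symm
    have hwu : polarBilin Q w u = 0 := hF.orth _ _ (pt_ne j)
    -- orthogonality relations
    have e1 : a * a + b * b = 1 := by
      have h1 := polar_omega y u u
      rw [hab] at h1
      simp only [map_add, map_smul, LinearMap.add_apply, LinearMap.smul_apply, smul_eq_mul, huu, hww, huw, hwu] at h1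
      have h2 : (2 : F) * (a * a + b * b) = 2 * 1 := by linear_combination h1
      exact mul_left_cancel₀ h.two h2
    have e2 : c * c + d * d = 1 := by
      have h1 := polar_omega y w w
      rw [hcd] at h1
      simp only [map_add, map_smul, LinearMap.add_apply, LinearMap.smul_apply, smul_eq_mul, huu, hww, huw, hwu] at h1
      have h2 : (2 : F) * (c * c + d * d) = 2 * 1 := by linear_combination h1
      exact mul_left_cancel₀ h.two h2
    have e3 : a * c + b * d = 0 := by
      have h1 := polar_omega y u w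
      rw [hab, hcd] at h1
      simp only [map_add, map_smul, LinearMap.add_apply, LinearMap.smul_apply, smul_eq_mul, huu, hww, huw, hwu] at h1
      have h2 : (2 : F) * (a * c + b * d) = 2 * 0 := by linear_combination h1
      exact mul_left_cancel₀ h.two h2
    have e4 : (a * d - b * c) * (a * d - b * c) = 1 := by
      linear_combination (c * c + d * d) * e1 + e2 - (a * c + b * d) * e3
    rcases sign_cases e4 with e5 | e5
    · -- rotation
      have hd : d = a := by
        linear_combination -d * e1 + a * e5 + b * e3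
      have hc : c = -b := by
        linear_combination -c * e1 - b * e5 + a * e3
      subst hd
      subst hc
      obtain ⟨t, htt⟩ := exists_sg h.gq h.two hF (po_ne j)
      obtain ⟨k, hk⟩ := ht j (po j) (po_ne j) t htt
      have htu : rep (inc (⇑Q)) t u = -u := by
        rw [htt, hu, mono_e hF h.two]
        unfold H556.Om.sg
        rw [if_pos (Or.inl rfl), neg_one_smul]
        rfl
      have htw : rep (inc (⇑Q)) t w = w := by
        rw [htt, hw, mono_e hF h.two]
        unfold H556.Om.sg
        rw [if_neg (by rintro (h1 | h1); exacts [pt_ne j h1, pt_ne_po j h1]), one_smul]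
        rfl
      have htu' : rep (inc (⇑Q)) t⁻¹ u = -u := by
        have h1 : rep (inc (⇑Q)) t⁻¹ (rep (inc (⇑Q)) t (-u)) = -u := inv_ap _ t _
        rwa [map_neg, htu, neg_neg] at h1
      have htw' : rep (inc (⇑Q)) t⁻¹ w = w := by
        have h1 : rep (inc (⇑Q)) t⁻¹ (rep (inc (⇑Q)) t w) = w := inv_ap _ t _
        rwa [htw] at h1
      have hyu' : rep (inc (⇑Q)) y⁻¹ u = d • u - b • w := by
        have h1 : rep (inc (⇑Q)) y (d • u - b • w) = u := by
          rw [map_sub, map_smul, map_smul, hab, hcd]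
          have h2 : d • (d • u + b • w) - b • (d • w + -b • u) = (d * d + b * b) • u := by module
          rw [h2, e1, one_smul]
        nth_rewrite 1 [← h1]
        exact inv_ap _ y _
      have hyw' : rep (inc (⇑Q)) y⁻¹ w = b • u + d • w := by
        have h1 : rep (inc (⇑Q)) y (b • u + d • w) = w := by
          rw [map_add, map_smul, map_smul, hab, hcd]
          have h2 : b • (d • u + b • w) + d • (d • w + -b • u) = (d * d + b * b) • w := by module
          rw [h2, e1, one_smul]
        nth_rewrite 1 [← h1]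
        exact inv_ap _ y _
      set x := y * t * y⁻¹ * t⁻¹ with hx
      have hxu : rep (inc (⇑Q)) x u = rep (inc (⇑Q)) (y * y) u := by
        have h1 : rep (inc (⇑Q)) t (rep (inc (⇑Q)) y⁻¹ (rep (inc (⇑Q)) t⁻¹ u)) = rep (inc (⇑Q)) y u := by
          rw [htu', map_neg, hyu', map_neg, map_sub, map_smul, map_smul, htu, htw, hab]
          module
        rw [hx, mul_ap, mul_ap, mul_ap, h1, ← mul_ap]
      have hxw : rep (inc (⇑Q)) x w = rep (inc (⇑Q)) (y * y) w := by
        have h1 : rep (inc (⇑Q)) t (rep (inc (⇑Q)) y⁻¹ (rep (inc (⇑Q)) t⁻¹ w)) = rep (inc (⇑Q)) y w := by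
          rw [htw', hyw', map_add, map_smul, map_smul, htu, htw, hcd]
          module
        rw [hx, mul_ap, mul_ap, mul_ap, h1, ← mul_ap]
      -- `x` is `y ^ 2` on the plane
      have hxU : ∀ α β : F, rep (inc (⇑Q)) x (α • u + β • w) = rep (inc (⇑Q)) (y * y) (α • u + β • w) := by
        intro α β
        rw [map_add, map_add, map_smul, map_smul, map_smul, map_smul, hxu, hxw]
      have hyU : ∀ α β : F, ∃ α' β' : F, rep (inc (⇑Q)) y (α • u + β • w) = α' • u + β' • w := by
        intro α β
        refine ⟨α * d - β * b, α * b + β * d, ?_⟩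
        rw [map_add, map_smul, map_smul, hab, hcd]
        module
      have hpow : ∀ m : ℕ, ∀ α β : F, rep (inc (⇑Q)) (x ^ m) (α • u + β • w) =
          rep (inc (⇑Q)) (y ^ (2 * m)) (α • u + β • w) := by
        intro m
        induction m with
        | zero => intro α β; rw [mul_zero, pow_zero, pow_zero]
        | succ m ih =>
          intro α β
          have h1 : y ^ (2 * (m + 1)) = y ^ (2 * m) * (y * y) := by
            rw [mul_add, mul_one, pow_add, pow_two]
          rw [pow_succ, mul_ap, hxU, h1, mul_ap (rep (inc (⇑Q))) (y ^ (2 * m))]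
          obtain ⟨α', β', h2⟩ := hyU α β
          obtain ⟨α'', β'', h3⟩ := hyU α' β'
          rw [mul_ap, h2, h3, ih]
      have h1 : y ^ (2 * 2 ^ k) ∈ st Q u := by
        have h2 := hpow (2 ^ k) 1 0
        rw [hk, map_one, Module.End.one_apply, one_smul, zero_smul, add_zero] at h2
        exact h2.symm
      refine mem_of_pow_mem ?_ h1 hyn'
      rw [← pow_succ']
      exact Nat.Coprime.pow_left _ (Nat.coprime_two_left.2 hn)
    · -- reflection
      have hd : d = -a := by
        linear_combination -d * e1 + a * e5 + b * e3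
      have hc : c = b := by
        linear_combination -c * e1 - b * e5 + a * e3
      subst hd
      subst hc
      have h1 : y ^ 2 ∈ st Q u := by
        rw [pow_two]
        show rep (inc (⇑Q)) (y * y) u = u
        rw [mul_ap, hab, map_add, map_smul, map_smul, hab, hcd]
        have h2 : a • (a • u + c • w) + c • (-a • w + c • u) = (a * a + c * c) • u := by module
        rw [h2, e1, one_smul]
      exact mem_of_pow_mem (Nat.coprime_two_left.2 hn) h1 hyn'
  apply rep_inj
  rw [map_one]
  exact ext8 h hF fun j => by rw [Module.End.one_apply]; exact main j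

end Cfsg.Agent.H778.D4
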